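import Cfsg.Agent.FrobAut.Semi
import Cfsg.Agent.Perm.Module
import Cfsg.Agent.Coprime.Frobenius

/-!
A Frobenius group with nilpotent kernel without fixed vectors makes the module free over the
complement.
-/

namespace CF.FrobAut

open Subgroup Cfsg CF.Solv CF.Coprime Module
open scoped Pointwise commutatorElement IsMulCommutative

universe u

variable {k : Type*} [Field k] {A : Type*} [Group A] [Finite A]

theorem fr_of_comm {V : Type*} [AddCommGroup V] [Module k V] [FiniteDimensional k V]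
    (ρ : Representation k A V) (Z H : Subgroup A) [Fintype Z] [Fintype H]
    (hn : H ≤ normalizer (Z : Set A))
    (hs : SemiReg H Z) (hc : ∀ a ∈ Z, ∀ b ∈ Z, ρ a * ρ b = ρ b * ρ a)
    (hZ : (Nat.card Z : k) ≠ 0) (h0 : ∑ z : Z, ρ z = 0) :
    Fr k (fun h : H => (ρ h).toAddMonoidHom) ⊤ := by
  let R := Algebra.adjoin k (Set.range fun z : Z => ρ z)
  haveI : IsMulCommutative R := Algebra.isMulCommutative_adjoin k (by
    rintro _ ⟨a, rfl⟩ _ ⟨b, rfl⟩
    exact hc _ a.2 _ b.2)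
  have hz : ∀ z ∈ Z, ρ z ∈ R := fun z hz => Algebra.subset_adjoin ⟨⟨z, hz⟩, rfl⟩
  have i1 : ∀ a : A, ρ a⁻¹ * ρ a = 1 := fun a => by rw [← map_mul, inv_mul_cancel, map_one]
  have i2 : ∀ a : A, ρ a * ρ a⁻¹ = 1 := fun a => by rw [← map_mul, mul_inv_cancel, map_one]
  have m1 : ∀ (a : A) (x y : End k V), ρ a * (x * y) * ρ a⁻¹ =
      (ρ a * x * ρ a⁻¹) * (ρ a * y * ρ a⁻¹) := fun a x y => by
    calc _ = ρ a * x * (ρ a⁻¹ * ρ a) * y * ρ a⁻¹ := by rw [i1]; noncomm_ring
      _ = _ := by noncomm_ring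
  have m2 : ∀ (a : A) (c : k), ρ a * algebraMap k _ c * ρ a⁻¹ = algebraMap k _ c := fun a c => by
    rw [← Algebra.commutes, mul_assoc, i2, mul_one]
  have hR : ∀ h : H, ∀ r ∈ R, ρ h * r * ρ (h : A)⁻¹ ∈ R := fun h r hr => by
    induction hr using Algebra.adjoin_induction with
    | mem x hx =>
      obtain ⟨z, rfl⟩ := hx
      rw [← map_mul, ← map_mul]
      exact hz _ (conj_mem_of_le_normalizer hn h.2 z.2)
    | algebraMap c => rw [m2]; exact R.algebraMap_mem c
    | add x y _ _ a b => rw [mul_add, add_mul]; exact R.add_mem a b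
    | mul x y _ _ a b => rw [m1]; exact R.mul_mem a b
  letI : MulSemiringAction H R :=
    { smul h r := ⟨ρ h * r * ρ (h : A)⁻¹, hR h r r.2⟩
      one_smul r := Subtype.ext (show ρ 1 * r * ρ 1⁻¹ = r by simp)
      mul_smul a b r := Subtype.ext (show ρ (a * b) * r * ρ (a * b)⁻¹ =
        ρ a * (ρ b * r * ρ (b : A)⁻¹) * ρ (a : A)⁻¹ by
          rw [mul_inv_rev, map_mul, map_mul]; noncomm_ring)
      smul_zero a := Subtype.ext (show ρ a * 0 * ρ (a : A)⁻¹ = 0 by simp)
      smul_add a x y := Subtype.ext (show ρ a * (x + y) * ρ (a : A)⁻¹ =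
        ρ a * x * ρ (a : A)⁻¹ + ρ a * y * ρ (a : A)⁻¹ by noncomm_ring)
      smul_one a := Subtype.ext (show ρ a * 1 * ρ (a : A)⁻¹ = 1 by rw [mul_one, i2])
      smul_mul a x y := Subtype.ext (m1 a x y) }
  have sm : ∀ (h : H) (r : R), ((h • r : R) : End k V) = ρ h * r * ρ (h : A)⁻¹ := fun _ _ => rfl
  haveI : SMulCommClass H k R := ⟨fun h c r => Subtype.ext (by
    rw [sm, Subalgebra.coe_smul, Subalgebra.coe_smul, sm, mul_smul_comm, smul_mul_assoc])⟩
  let e : Z → R := fun z => ⟨ρ z, hz z z.2⟩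
  have hsum : ∑ z, e z = 0 := Subtype.ext (by rw [AddSubmonoidClass.coe_finsetSum]; exact h0)
  refine Semi.fr (R := R) 0 (fun m hm _ h h1 => ?_) _ V _ ⟨fun v => by simp, fun g h v => by simp,
    fun h r v => ?_⟩ (fun v => zero_smul _ v) rfl
  · by_contra hcon
    push Not at hcon
    have k1 : ∀ z, e z - 1 ∈ m := fun z => by
      obtain ⟨x, hx, hxz⟩ := fpf_exists_eq (hn h.2) (hs h h.2 fun e => h1 (Subtype.ext e)) z.2
      have := m.mul_mem_left (e ⟨x, hx⟩⁻¹) (hcon (e ⟨x, hx⟩))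
      convert this using 1
      apply Subtype.ext
      change ρ z - 1 = ρ x⁻¹ * (ρ h * ρ x * ρ (h : A)⁻¹ - ρ x)
      rw [mul_sub, i1, ← hxz, map_mul, map_mul, map_mul]
    have k2 := m.sum_mem fun z (_ : z ∈ Finset.univ) => k1 z
    rw [Finset.sum_sub_distrib, hsum, zero_sub, neg_mem_iff, Finset.sum_const, Finset.card_univ,
      ← Nat.card_eq_fintype_card, nsmul_eq_mul, mul_one, ← map_natCast (algebraMap k R)] at k2
    exact hm.ne_top (m.eq_top_of_isUnit_mem k2 ((IsUnit.mk0 _ hZ).map _))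
  · change ρ h ((r : End k V) v) = (ρ h * r * ρ (h : A)⁻¹) (ρ h v)
    simp

theorem exists_comm {V : Type*} [AddCommGroup V] [Module k V] [Nontrivial V]
    (ρ : Representation k A V) (F : Subgroup A) [F.Normal] [Group.IsNilpotent F]
    (hF : ∀ v : V, (∀ f ∈ F, ρ f v = v) → v = 0) :
    ∃ Z : Subgroup A, Z.Normal ∧ Z ≤ F ∧ (Nat.card Z : k) ≠ 0 ∧ ¬ Z ≤ ρ.ker ∧ ⁅Z, Z⁆ ≤ ρ.ker := by
  obtain ⟨N, hN⟩ : ∃ N : Subgroup A, N.Normal ∧ N ≤ F ∧ (Nat.card N : k) ≠ 0 ∧ ¬ N ≤ ρ.ker := by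
    obtain ⟨p, hp⟩ := CharP.exists k
    rcases CharP.char_is_prime_or_zero k p with h | rfl
    · have := Fact.mk h
      refine ⟨(pPrimeCore p F).map F.subtype, inferInstance, map_subtype_le _, ?_, fun hk => ?_⟩
      · rw [Ne, CharP.cast_eq_zero_iff k p, card_subtype]
        exact not_dvd_card_pPrimeCore
      · obtain ⟨v, -, hv, hf⟩ := CF.Perm.exists_fixed_vector (pCore_isPGroup (p := p) (G := F))
          (ρ.comp (F.subtype.comp (pCore p F).subtype)) ⊤ (fun _ _ _ => trivial) top_ne_bot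
        refine hv (hF v fun f hf' => ?_)
        obtain ⟨a, ha, b, hb, e⟩ := mem_sup_of_normal_left.1
          ((pCore_sup_pPrimeCore (G := F) p).ge (mem_top (⟨f, hf'⟩ : F)))
        have e1 : f = a * b := (congrArg Subtype.val e).symm
        have e2 : ρ b = 1 := hk ⟨b, hb, rfl⟩
        rw [e1, map_mul, e2, mul_one]
        exact hf ⟨a, ha⟩
    · have := CharP.charP_to_charZero k
      refine ⟨F, inferInstance, le_rfl, Nat.cast_ne_zero.2 Nat.card_pos.ne', fun hk => ?_⟩
      obtain ⟨v, hv⟩ := exists_ne (0 : V)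
      exact hv (hF v fun f hf => by rw [show ρ f = 1 from hk hf]; rfl)
  obtain ⟨Z, ⟨h1, h2, h3, h4⟩, hmin⟩ := (wellFounded_lt (α := Subgroup A)).has_min
    {N : Subgroup A | N.Normal ∧ N ≤ F ∧ (Nat.card N : k) ≠ 0 ∧ ¬ N ≤ ρ.ker} ⟨N, hN⟩
  refine ⟨Z, h1, h2, h3, h4, ?_⟩
  by_contra h5
  have := isNilpotent_of_le h2
  have hlt : ⁅Z, Z⁆ < Z := commutator_lt_of_isNilpotent le_rfl le_normalizer
    fun h => h4 (h ▸ bot_le)
  refine hmin _ ⟨inferInstance, hlt.le.trans h2, fun h => h3 ?_, h5⟩ hlt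
  obtain ⟨c, hc⟩ := card_dvd_of_le hlt.le
  rw [hc, Nat.cast_mul, h, zero_mul]

theorem fr_of_semiReg (F H : Subgroup A) [F.Normal] [Group.IsNilpotent F] [Fintype H]
    (hs : SemiReg H F) (n : ℕ) :
    ∀ (V : Type u) [AddCommGroup V] [Module k V] [FiniteDimensional k V]
      (ρ : Representation k A V), (∀ v : V, (∀ f ∈ F, ρ f v = v) → v = 0) → finrank k V = n →
      Fr k (fun h : H => (ρ h).toAddMonoidHom) ⊤ := by
  induction n using Nat.strong_induction_on with
  | _ n ih =>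
    intro V _ _ _ ρ hF hn
    rcases subsingleton_or_nontrivial V with h | h
    · exact fr_of_subsingleton _ _
    obtain ⟨Z, h1, h2, h3, h4, h5⟩ := exists_comm ρ F hF
    have := Fintype.ofFinite Z
    let U : Submodule k V :=
      { carrier := {v | ∀ z ∈ Z, ρ z v = v}
        add_mem' := fun a b z hz => by rw [map_add, a z hz, b z hz]
        zero_mem' := fun z _ => map_zero _
        smul_mem' := fun c v a z hz => by rw [map_smul, a z hz] }
    have hU : ∀ g, U ≤ U.comap (ρ g) := fun g v hv z hz => by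
      have := congrArg (ρ g) (hv _ (h1.conj_mem z hz g⁻¹))
      simpa using this
    have hlt : finrank k U < n := hn ▸ Submodule.finrank_lt fun h => h4 fun z hz =>
      LinearMap.ext fun v => (h.ge (Submodule.mem_top (x := v))) z hz
    refine Fr.ext (τ := fun h : H => (ρ.quotient U hU h).toAddMonoidHom) U.mkQ U.mkQ_surjective
      (fun _ _ => rfl) ?_ (fr_of_comm _ Z H le_normalizer_of_normal (hs.mono le_rfl h2)
        (fun a ha b hb => ?_) h3 ?_)
    · have := (ih _ hlt U (ρ.subrepresentation U hU) (fun v hv => Subtype.ext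
        (hF v fun f hf => congrArg Subtype.val (hv f hf))) rfl).map
        (τ := fun h : H => (ρ h).toAddMonoidHom) U.subtype U.subtype_injective fun _ _ => rfl
      simpa using this
    · have e : ρ a * ρ b = ρ b * ρ a := by
        have : ρ ⁅a, b⁆ = 1 := h5 (commutator_mem_commutator ha hb)
        rw [← map_mul, ← map_mul, show a * b = ⁅a, b⁆ * (b * a) by group, map_mul, this, one_mul]
      ext v
      exact congrArg U.mkQ (LinearMap.congr_fun e v)
    · ext v
      have : ∑ z : Z, ρ z v ∈ U := fun y hy => by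
        rw [map_sum, ← Equiv.sum_comp (Equiv.mulLeft (⟨y, hy⟩ : Z)) fun z : Z => ρ z v]
        simp
      rw [← Submodule.Quotient.mk_eq_zero, ← Submodule.mkQ_apply, map_sum] at this
      simpa using this

end CF.FrobAut
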