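import Mathlib

/-!
Free modules over group algebras: semilinear actions with trivial inertia groups.
-/

namespace CF.FrobAut

open scoped Pointwise

universe u

variable {k : Type*} [Field k] {H : Type*} [Group H] [Fintype H]

/-- `U` is the direct sum of the translates of a subspace. -/
def Fr (k : Type*) [Field k] {H : Type*} [Fintype H] {V : Type*} [AddCommGroup V] [Module k V]
    (σ : H → V →+ V) (U : Submodule k V) : Prop :=
  ∃ W : Submodule k V, (∀ h, ∀ x ∈ W, σ h x ∈ U) ∧
    (∀ u ∈ U, ∃ x : H → V, (∀ h, x h ∈ W) ∧ ∑ h, σ h (x h) = u) ∧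
    ∀ x : H → V, (∀ h, x h ∈ W) → ∑ h, σ h (x h) = 0 → ∀ h, x h = 0

section Basic

variable {V Q : Type*} [AddCommGroup V] [Module k V] [AddCommGroup Q] [Module k Q]

omit [Group H] in
theorem fr_of_subsingleton [Subsingleton V] (σ : H → V →+ V) (U : Submodule k V) : Fr k σ U :=
  ⟨⊥, fun _ _ _ => by rw [Subsingleton.elim (σ _ _) 0]; exact U.zero_mem,
    fun _ _ => ⟨0, fun _ => Submodule.zero_mem _, Subsingleton.elim _ _⟩,
    fun _ _ _ _ => Subsingleton.elim _ _⟩

omit [Group H] in
theorem Fr.ext {σ : H → V →+ V} {τ : H → Q →+ Q} (π : V →ₗ[k] Q) (hπ : Function.Surjective π)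
    (hc : ∀ h v, π (σ h v) = τ h (π v)) (h1 : Fr k σ π.ker) (h2 : Fr k τ ⊤) : Fr k σ ⊤ := by
  obtain ⟨s, hs⟩ := π.exists_rightInverse_of_surjective (LinearMap.range_eq_top.2 hπ)
  have hs' : ∀ q, π (s q) = q := fun q => LinearMap.congr_fun hs q
  obtain ⟨W, a1, a2, a3⟩ := h1
  obtain ⟨W', -, b2, b3⟩ := h2
  refine ⟨W ⊔ W'.map s, fun _ _ _ => trivial, fun u _ => ?_, fun x hx h0 => ?_⟩
  · obtain ⟨y, hy, e⟩ := b2 (π u) trivial
    obtain ⟨z, hz, e'⟩ := a2 (u - ∑ h, σ h (s (y h))) (by
      simp [LinearMap.mem_ker, map_sum, hc, hs', e])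
    refine ⟨fun h => z h + s (y h), fun h => Submodule.add_mem_sup (hz h) ⟨_, hy h, rfl⟩, ?_⟩
    simp only [map_add, Finset.sum_add_distrib, e', sub_add_cancel]
  · choose z hz y hy e using fun h => Submodule.mem_sup.1 (hx h)
    choose y' hy' e' using hy
    have k1 : ∀ h, y' h = 0 := b3 y' hy' (by
      have := congrArg π h0
      rw [map_sum, map_zero] at this
      rw [← this]
      refine Finset.sum_congr rfl fun h _ => ?_
      rw [← e h, ← e' h, map_add, map_add, LinearMap.mem_ker.1 (a1 h _ (hz h)), zero_add, hc, hs'])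
    have k2 : ∀ h, x h = z h := fun h => by rw [← e h, ← e' h, k1, map_zero, add_zero]
    intro h
    rw [k2, a3 z hz (by simpa only [k2] using h0)]

omit [Group H] in
theorem Fr.map {σ : H → V →+ V} {τ : H → Q →+ Q} (f : V →ₗ[k] Q) (hf : Function.Injective f)
    (hc : ∀ h v, f (σ h v) = τ h (f v)) (h1 : Fr k σ ⊤) : Fr k τ f.range := by
  obtain ⟨W, -, a2, a3⟩ := h1
  refine ⟨W.map f, ?_, ?_, fun x hx h0 h => ?_⟩
  · rintro h _ ⟨x, -, rfl⟩
    exact ⟨_, hc h x⟩
  · rintro _ ⟨u, rfl⟩
    obtain ⟨x, hx, rfl⟩ := a2 u trivial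
    exact ⟨fun h => f (x h), fun h => ⟨_, hx h, rfl⟩, by simp [map_sum, hc]⟩
  · choose y hy e using hx
    rw [← e h, a3 y hy (hf (by simpa [map_sum, hc, e] using h0)), map_zero]

theorem Fr.isInternal [DecidableEq H] {ρ : H → V →ₗ[k] V} (hρ : ∀ h, Function.Injective (ρ h))
    (h : Fr k (fun h => (ρ h).toAddMonoidHom) ⊤) :
    ∃ W : Submodule k V, DirectSum.IsInternal (fun h => W.map (ρ h)) := by
  obtain ⟨W, -, a2, a3⟩ := h
  refine ⟨W, ?_, fun u => ?_⟩
  · rw [injective_iff_map_eq_zero]
    intro x hx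
    choose y hy e using fun h => (x h).2
    have : ∑ h, ρ h (y h) = 0 := by
      rw [← hx, ← DirectSum.sum_univ_of x, map_sum]
      simp [e]
    ext h
    rw [← e h, a3 y hy this]; simp
  · obtain ⟨x, hx, rfl⟩ := a2 u trivial
    refine ⟨∑ h, DirectSum.of (fun h => W.map (ρ h)) h ⟨ρ h (x h), _, hx h, rfl⟩, ?_⟩
    rw [map_sum]; simp

end Basic

section Field

variable {K G : Type*} [Field K] [Group G] [Fintype G] [MulSemiringAction G K] [FaithfulSMul G K]

/-- The normal basis theorem for a group acting faithfully on a field. -/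
theorem exists_normal : ∃ α : K,
    (∀ x : K, ∃ l : G → K, (∀ g, ∀ t : G, t • l g = l g) ∧ ∑ g, l g * g • α = x) ∧
    ∀ l : G → K, (∀ g, ∀ t : G, t • l g = l g) → ∑ g, l g * g • α = 0 → ∀ g, l g = 0 := by
  let L := FixedPoints.subfield G K
  let e := FixedPoints.toAlgAutMulEquiv G K
  let b := (IsGalois.normalBasis L K).reindex e.toEquiv.symm
  have hb : ∀ g, b g = g • IsGalois.normalBasis L K 1 := fun g => by
    rw [Module.Basis.reindex_apply, IsGalois.normalBasis_apply]; rfl
  refine ⟨IsGalois.normalBasis L K 1, fun x => ⟨fun g => (b.repr x g : L), fun g t =>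
    (b.repr x g).2 t, ?_⟩, fun l hl h0 g => ?_⟩
  · conv_rhs => rw [← b.sum_repr x]
    exact Finset.sum_congr rfl fun g _ => by rw [hb]; rfl
  · have := Fintype.linearIndependent_iff.1 b.linearIndependent (fun g => (⟨l g, hl g⟩ : L)) (by
      rw [← h0]
      exact Finset.sum_congr rfl fun g _ => by rw [hb]; rfl) g
    exact congrArg Subtype.val this

/-- Dedekind independence with vector coefficients. -/
theorem eq_zero_of_sum_smul {M : Type*} [AddCommGroup M] [Module K M] (v : G → M)
    (h : ∀ x : K, ∑ g, (g • x) • v g = 0) (g : G) : v g = 0 := by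
  refine (Module.forall_dual_apply_eq_zero_iff K _).1 fun φ => ?_
  have li : LinearIndependent K fun g : G => (MulSemiringAction.toRingHom G K g : K → K) :=
    (linearIndependent_monoidHom K K).comp
      (fun g : G => (MulSemiringAction.toRingHom G K g).toMonoidHom) fun a b hab =>
        FaithfulSMul.eq_of_smul_eq_smul (α := K) fun x => DFunLike.congr_fun hab x
  refine Fintype.linearIndependent_iff.1 li (fun g => φ (v g)) ?_ g
  ext x
  have := congrArg φ (h x)
  simpa [map_sum, mul_comm] using this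

end Field

section Semi

variable {R : Type*} [CommRing R] [Algebra k R] [MulSemiringAction H R] [SMulCommClass H k R]

/-- A semilinear action. -/
structure Semi (R : Type*) [CommRing R] [MulSemiringAction H R] {V : Type*} [AddCommGroup V]
    [Module R V] (σ : H → V →+ V) : Prop where
  one : ∀ v, σ 1 v = v
  mul : ∀ g h v, σ (g * h) v = σ g (σ h v)
  smul : ∀ h (r : R) v, σ h (r • v) = (h • r) • σ h v

variable {V : Type*} [AddCommGroup V] [Module k V] [Module R V] [IsScalarTower k R V]
  {σ : H → V →+ V}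

theorem sum_eq_sub {M : Type*} [AddCommMonoid M] (T : Subgroup H) [Fintype T] (f : H → M)
    (hf : ∀ g, g ∉ T → f g = 0) : ∑ g, f g = ∑ t : T, f t := by
  classical
  rw [← Finset.sum_subtype (Finset.univ.filter (· ∈ T)) (by simp) f]
  exact (Finset.sum_subset (Finset.filter_subset _ _) fun g _ hg => hf g (by simpa using hg)).symm

theorem exists_sep (m : Ideal R) [hm : m.IsMaximal] :
    ∃ r : R, r ∉ m ∧ ∀ t : H, t • m ≠ m → r ∈ t • m := by
  classical
  have : ∀ t : H, ∃ r : R, r ∉ m ∧ (t • m ≠ m → r ∈ t • m) := fun t => by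
    by_cases h : t • m = m
    · exact ⟨1, fun h1 => hm.ne_top ((Ideal.eq_top_iff_one _).2 h1), fun h' => (h' h).elim⟩
    · have : (t • m).IsMaximal :=
        Ideal.map_isMaximal_of_equiv (MulSemiringAction.toRingEquiv H R t) (p := m)
      obtain ⟨r, a, b⟩ := SetLike.not_le_iff_exists.1 fun hle => h (this.eq_of_le hm.ne_top hle)
      exact ⟨r, b, fun _ => a⟩
  choose r a b using this
  refine ⟨∏ t, r t, fun h => ?_, fun t ht => ?_⟩
  · obtain ⟨t, -, ht⟩ := Ideal.IsPrime.prod_mem_iff.1 h
    exact a t ht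
  · exact Ideal.mem_of_dvd _ (Finset.dvd_prod_of_mem r (Finset.mem_univ t)) (b t ht)

theorem eq_zero_of_smul (m : Ideal R) [hm : m.IsMaximal] {y : V} (hy : ∀ a ∈ m, a • y = 0) {r : R}
    (hr : r ∉ m) (h : r • y = 0) : y = 0 := by
  obtain ⟨b, c, hc, e⟩ := hm.exists_inv hr
  rw [← one_smul R y, ← e, add_smul, mul_smul, h, hy c hc]; simp

theorem Semi.exists_sub (S : Semi R σ) (m : Ideal R) [hm : m.IsMaximal] {v : V} (hv : v ≠ 0)
    (hmv : ∀ a ∈ m, a • v = 0) (hI : ∀ h : H, h ≠ 1 → ∃ r : R, h • r - r ∉ m) :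
    ∃ U : Submodule R V, U ≠ ⊥ ∧ (∀ h, ∀ u ∈ U, σ h u ∈ U) ∧ Fr k σ (U.restrictScalars k) := by
  classical
  let T := MulAction.stabilizer H m
  let K := R ⧸ m
  letI : Field K := Ideal.Quotient.field m
  have hT : ∀ t : T, ∀ a ∈ m, (t : H) • a ∈ m := fun t a ha => by
    have := Ideal.smul_mem_pointwise_smul (t : H) a m ha
    rwa [t.2] at this
  letI : MulSemiringAction T K :=
    { smul t := Ideal.quotientMap m (MulSemiringAction.toRingHom H R t) (hT t)
      one_smul := by rintro ⟨x⟩; exact congrArg (Ideal.Quotient.mk m) (one_smul H x)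
      mul_smul := by rintro a b ⟨x⟩; exact congrArg (Ideal.Quotient.mk m) (mul_smul (a : H) b x)
      smul_zero := fun t => map_zero (Ideal.quotientMap m _ (hT t))
      smul_add := fun t => map_add (Ideal.quotientMap m _ (hT t))
      smul_one := fun t => map_one (Ideal.quotientMap m _ (hT t))
      smul_mul := fun t => map_mul (Ideal.quotientMap m _ (hT t)) }
  have sm : ∀ (t : T) (a : R), t • (Ideal.Quotient.mk m a : K) =
    Ideal.Quotient.mk m ((t : H) • a) := fun _ _ => rfl
  haveI : FaithfulSMul T K := ⟨fun {a b} hab => by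
    by_contra hne
    obtain ⟨r, hr⟩ := hI (b⁻¹ * a : T) (fun h => hne (inv_mul_eq_one.1 (Subtype.ext h)).symm)
    apply hr
    rw [← Ideal.Quotient.eq, ← sm, mul_smul, hab, inv_smul_smul]⟩
  -- the torsion submodule is invariant under the stabilizer
  have tor : ∀ (t : T) (y : V), (∀ a ∈ m, a • y = 0) → ∀ a ∈ m, a • σ t y = 0 := by
    intro t y hy a ha
    have := S.smul t ((t⁻¹ : T) • a) y
    rw [hy ((t⁻¹ : T) • a) (hT _ a ha), map_zero] at this
    simpa [Subgroup.smul_def] using this.symm
  obtain ⟨w, hw, hmw, hfix⟩ : ∃ w : V, w ≠ 0 ∧ (∀ a ∈ m, a • w = 0) ∧ ∀ t : T, σ t w = w := by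
    by_contra hcon
    push Not at hcon
    let M := Submodule.torsionBySet R V m
    have key : ∀ r : R, ∑ t : T, σ t (r • v) = 0 := fun r => by
      by_contra h0
      obtain ⟨t, ht⟩ := hcon _ h0 (fun a ha => by
        rw [Finset.smul_sum]
        exact Finset.sum_eq_zero fun t _ => tor t _ (fun b hb => by
          rw [smul_comm, hmv b hb, smul_zero]) a ha)
      apply ht
      rw [map_sum]
      simp only [← S.mul]
      exact Equiv.sum_comp (Equiv.mulLeft t) fun s : T => σ s (r • v)
    have := eq_zero_of_sum_smul (K := K) (G := T) (M := M) (fun t => ⟨σ t v,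
      (Submodule.mem_torsionBySet_iff _ _).2 fun a => tor t v hmv a a.2⟩) (by
        intro x
        obtain ⟨r, rfl⟩ := Ideal.Quotient.mk_surjective x
        apply Subtype.ext
        rw [AddSubmonoidClass.coe_finsetSum, ZeroMemClass.coe_zero]
        exact (Finset.sum_congr rfl fun (t : T) _ => (S.smul t r v).symm).trans (key r)) 1
    exact hv (by simpa [S.one] using congrArg Subtype.val this)
  have ann : ∀ a : R, a • w = 0 → a ∈ m := fun a ha => by
    by_contra h
    exact hw (eq_zero_of_smul m hmw h ha)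
  have cong : ∀ a b : R, (Ideal.Quotient.mk m a : K) = Ideal.Quotient.mk m b → a • w = b • w :=
    fun a b h => by rw [← sub_eq_zero, ← sub_smul, hmw _ (Ideal.Quotient.eq.1 h)]
  obtain ⟨α, h1, h2⟩ := exists_normal (K := K) (G := T)
  let W : Submodule k V :=
    { carrier := {x | ∃ (a : R) (l : K), (∀ t : T, t • l = l) ∧ Ideal.Quotient.mk m a = l * α ∧
        a • w = x}
      add_mem' := by
        rintro _ _ ⟨a, l, p1, p2, rfl⟩ ⟨b, l', q1, q2, rfl⟩
        exact ⟨a + b, l + l', fun t => by rw [smul_add, p1, q1], by rw [map_add, p2, q2, add_mul],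
          add_smul _ _ _⟩
      zero_mem' := ⟨0, 0, fun t => smul_zero t, by simp, zero_smul _ _⟩
      smul_mem' := by
        rintro c _ ⟨a, l, p1, p2, rfl⟩
        refine ⟨c • a, Ideal.Quotient.mk m (algebraMap k R c) * l, fun t => ?_, ?_, smul_assoc _ _ _⟩
        · rw [smul_mul', p1, sm, smul_algebraMap]
        · rw [Algebra.smul_def, map_mul, p2, mul_assoc] }
  let U : Submodule R V := Submodule.span R (Set.range fun h => σ h w)
  have hU : ∀ h, σ h w ∈ U := fun h => Submodule.subset_span ⟨h, rfl⟩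
  refine ⟨U, fun h => hw ?_, fun h u hu => ?_, W, ?_, fun u hu => ?_, fun x hx h0 g => ?_⟩
  · have := hU 1
    rwa [h, S.one, Submodule.mem_bot] at this
  · induction hu using Submodule.span_induction with
    | mem x hx => obtain ⟨g, rfl⟩ := hx; rw [← S.mul]; exact hU _
    | zero => simp
    | add x y _ _ a b => rw [map_add]; exact U.add_mem a b
    | smul r x _ a => rw [S.smul]; exact U.smul_mem _ a
  · rintro h _ ⟨a, -, -, -, rfl⟩
    rw [S.smul]
    exact U.smul_mem _ (hU h)
  · obtain ⟨c, rfl⟩ := (Submodule.mem_span_range_iff_exists_fun R).1 hu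
    have : ∀ h, ∃ x : H → V, (∀ h, x h ∈ W) ∧ ∑ h, σ h (x h) = c h • σ h w := fun h => by
      obtain ⟨l, p1, p2⟩ := h1 (Ideal.Quotient.mk m (h⁻¹ • c h))
      choose a ha using fun t => Ideal.Quotient.mk_surjective (I := m) (l t * α)
      refine ⟨fun g => if hg : h⁻¹ * g ∈ T then a ⟨_, hg⟩ • w else 0, fun g => ?_, ?_⟩
      · dsimp only
        split_ifs with hg
        · exact ⟨_, _, p1 _, ha _, rfl⟩
        · exact W.zero_mem
      · have e1 : c h • σ h w = σ h (∑ t : T, σ t (a t • w)) := by
          have : ∑ t : T, σ t (a t • w) = (∑ t : T, (t : H) • a t) • w := by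
            simp only [S.smul, hfix, Finset.sum_smul]
          rw [this, cong _ (h⁻¹ • c h), S.smul, smul_inv_smul]
          rw [← p2, map_sum]
          exact Finset.sum_congr rfl fun t _ => by rw [← sm, ha, smul_mul', p1]
        rw [e1, map_sum, ← Equiv.sum_comp (Equiv.mulLeft h), sum_eq_sub T _ fun g hg => by
          simp [hg]]
        exact Finset.sum_congr rfl fun t _ => by simp [S.mul]
    choose x hx e using this
    refine ⟨∑ h, x h, fun g => ?_, ?_⟩
    · rw [Finset.sum_apply]; exact W.sum_mem fun h _ => hx h g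
    · simp only [Finset.sum_apply, map_sum]
      rw [Finset.sum_comm]
      exact Finset.sum_congr rfl fun h _ => e h
  · choose a l p1 p2 p3 using hx
    obtain ⟨r, hr, hr'⟩ := exists_sep (H := H) m
    have e1 : ∑ h, σ h (x (g * h)) = 0 := by
      have := congrArg (σ g⁻¹) h0
      rw [map_zero, map_sum, ← Equiv.sum_comp (Equiv.mulLeft g)] at this
      simpa [← S.mul] using this
    have e2 : ∑ t : T, σ t (x (g * t)) = (∑ t : T, (t : H) • a (g * t)) • w := by
      rw [Finset.sum_smul]
      exact Finset.sum_congr rfl fun t _ => by rw [← p3, S.smul, hfix]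
    have e3 : r • ∑ t : T, σ t (x (g * t)) = 0 := by
      rw [Finset.smul_sum, ← sum_eq_sub T (fun h => r • σ h (x (g * h))) fun h hh => ?_,
        ← Finset.smul_sum, e1, smul_zero]
      have := hr' h hh
      rw [Ideal.mem_pointwise_smul_iff_inv_smul_mem] at this
      rw [← smul_inv_smul h r, ← S.smul, ← p3, smul_comm, hmw _ this, smul_zero, map_zero]
    rw [e2] at e3
    have e4 := ann _ (eq_zero_of_smul m (fun b hb => by rw [smul_comm, hmw b hb, smul_zero]) hr e3)
    rw [← Ideal.Quotient.eq_zero_iff_mem, map_sum] at e4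
    have e5 := h2 (fun t => l (g * t)) (fun t => p1 _) (by
      rw [← e4]
      exact Finset.sum_congr rfl fun t _ => by rw [← sm, p2, smul_mul', p1]) 1
    simp only [OneMemClass.coe_one, mul_one] at e5
    rw [← p3, cong _ 0 (by rw [p2, e5, zero_mul, map_zero]), zero_smul]

end Semi

/-- A semilinear action with trivial inertia groups on the support gives a free module. -/
theorem Semi.fr {R : Type*} [CommRing R] [Algebra k R] [MulSemiringAction H R]
    [SMulCommClass H k R] (s : R)
    (hI : ∀ m : Ideal R, m.IsMaximal → s ∈ m → ∀ h : H, h ≠ 1 → ∃ r : R, h • r - r ∉ m) (n : ℕ) :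
    ∀ (V : Type u) [AddCommGroup V] [Module k V] [Module R V] [IsScalarTower k R V]
      [FiniteDimensional k V] (σ : H → V →+ V), Semi R σ → (∀ v : V, s • v = 0) →
      Module.finrank k V = n → Fr k σ ⊤ := by
  induction n using Nat.strong_induction_on with
  | _ n ih =>
    intro V _ _ _ _ _ σ S hs hn
    rcases subsingleton_or_nontrivial V with h | h
    · exact fr_of_subsingleton _ _
    have : IsArtinian R V := isArtinian_of_tower k inferInstance
    obtain ⟨X, hX, -⟩ := (eq_bot_or_exists_atom_le (⊤ : Submodule R V)).resolve_left top_ne_bot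
    have : IsSimpleModule R X := isSimpleModule_iff_isAtom.2 hX
    have hm : (Module.annihilator R X).IsMaximal := IsSimpleModule.annihilator_isMaximal
    obtain ⟨v, hv, h0⟩ := Submodule.exists_mem_ne_zero_of_ne_bot hX.1
    obtain ⟨U, h1, h2, h3⟩ := S.exists_sub (k := k) (Module.annihilator R X) h0
      (fun a ha => congrArg Subtype.val (Module.mem_annihilator.1 ha ⟨v, hv⟩))
      (hI _ hm (Module.mem_annihilator.2 fun x => Subtype.ext (hs x)))
    let π : V →ₗ[k] V ⧸ U := U.mkQ.restrictScalars k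
    have hπ : Function.Surjective π := U.mkQ_surjective
    have hk : π.ker = U.restrictScalars k := by ext; simp [π]
    let τ : H → V ⧸ U →+ V ⧸ U := fun h =>
      QuotientAddGroup.map U.toAddSubgroup U.toAddSubgroup (σ h) (h2 h)
    have : FiniteDimensional k (V ⧸ U) := Module.Finite.of_surjective π hπ
    refine Fr.ext (τ := τ) π hπ (fun _ _ => rfl) (hk ▸ h3) (ih _ ?_ _ τ ⟨?_, ?_, ?_⟩ ?_ rfl)
    · have e := π.finrank_range_add_finrank_ker
      rw [LinearMap.range_eq_top.2 hπ, finrank_top, hn] at e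
      have : Module.finrank k π.ker ≠ 0 := by
        rw [Ne, Submodule.finrank_eq_zero, hk]
        simpa using h1
      omega
    · intro x
      obtain ⟨x, rfl⟩ := hπ x
      exact congrArg π (S.one x)
    · intro g h x
      obtain ⟨x, rfl⟩ := hπ x
      exact congrArg π (S.mul g h x)
    · intro h r x
      obtain ⟨x, rfl⟩ := hπ x
      exact congrArg π (S.smul h r x)
    · intro x
      obtain ⟨x, rfl⟩ := hπ x
      exact (congrArg π (hs x)).trans (map_zero π)

end CF.FrobAut
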